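import Cfsg.Agent.H7.Lin
import Cfsg.Agent.Asch.FinField

/-!
Transvections over a field subalgebra of the matrix algebra.
-/

set_option autoImplicit false
set_option linter.unusedSectionVars false

namespace Cfsg.Agent.H7

open Module Matrix

variable {ι : Type} [Fintype ι] [DecidableEq ι] {F : Type*} [Field F]

theorem det_one_add_of_sq_zero [Finite F] {T : Matrix ι ι F} (hT : T * T = 0) :
    (1 + T).det = 1 := by
  obtain ⟨p, hp⟩ := CharP.exists F
  haveI : Fact p.Prime := ⟨CharP.char_is_prime F p⟩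
  have h1 : ∀ k : ℕ, (1 + T) ^ k = 1 + (k : F) • T := by
    intro k
    induction k with
    | zero => simp
    | succ k ih =>
      rw [pow_succ, ih, add_mul, mul_add, mul_add, smul_mul_assoc, smul_mul_assoc, hT]
      simp only [Nat.cast_add, Nat.cast_one, add_smul, one_mul, mul_one, smul_zero]
      module
  apply frobenius_inj F p
  rw [frobenius_def, ← Matrix.det_pow, h1]
  simp

/-- the unit `1 + T` for `T ^ 2 = 0` -/
def oneAdd {T : Matrix ι ι F} (hT : T * T = 0) : GL ι F :=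
  ⟨1 + T, 1 - T, by simp [mul_sub, add_mul, hT], by simp [sub_mul, mul_add, hT]⟩

theorem eq_zero_of_mulVec_field {r : ℕ} {K : Subalgebra F (Matrix ι ι F)}
    (hK : Geo.IsFieldSubalgebra r K) {k : Matrix ι ι F} (hk : k ∈ K) {x : ι → F} (hx : x ≠ 0)
    (h : k *ᵥ x = 0) : k = 0 := by
  by_contra h0
  obtain ⟨y, hy, hy'⟩ := hK.inv k hk h0
  rw [hK.comm k hk y hy] at hy'
  apply hx
  rw [← Matrix.one_mulVec x, ← hy', ← Matrix.mulVec_mulVec, h, Matrix.mulVec_zero]

/-- evaluation of the elements of `K` at a vector -/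
def evalAt (K : Subalgebra F (Matrix ι ι F)) (v : ι → F) : K →ₗ[F] (ι → F) where
  toFun k := (k : Matrix ι ι F) *ᵥ v
  map_add' a b := by simp [Matrix.add_mulVec]
  map_smul' a b := by simp [Matrix.smul_mulVec]

theorem exists_field_transvection {s : ℕ} {K : Subalgebra F (Matrix ι ι F)}
    (hK : Geo.IsFieldSubalgebra s K) (hs : s < Fintype.card ι) :
    ∃ T : Matrix ι ι F, T ≠ 0 ∧ T * T = 0 ∧ (∀ k ∈ K, T * k = k * T) ∧
      finrank F (LinearMap.range (Matrix.toLin' T)) ≤ s := by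
  haveI : Nonempty ι := Fintype.card_pos_iff.1 (by omega)
  letI := (Asch.isField_of_inv hK.comm hK.inv).toField
  letI : Module K (ι → F) := Module.compHom (ι → F)
    ((Matrix.toLinAlgEquiv' (R := F) (n := ι)).toRingEquiv.toRingHom.comp K.val.toRingHom)
  obtain ⟨v, hv⟩ := exists_ne (0 : ι → F)
  obtain ⟨w, -, hw⟩ := exists_notMem_of_finrank_lt (U := LinearMap.range (evalAt K v)) (W := ⊤) (by
    have := LinearMap.finrank_range_le (evalAt K v)
    rw [finrank_top, Module.finrank_fintype_fun_eq_card, ← hK.finrank_eq] at *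
    omega)
  obtain ⟨φ, hφ, hφ'⟩ := exists_dual_one (F := K) (U := K ∙ v) (v := w) fun h => by
    obtain ⟨k, hk⟩ := Submodule.mem_span_singleton.1 h
    exact hw ⟨k, hk⟩
  have hφs : ∀ (k : K) (x : ι → F), φ ((k : Matrix ι ι F) *ᵥ x) = k * φ x :=
    fun k x => φ.map_smul k x
  let T : (ι → F) →ₗ[F] (ι → F) :=
    { toFun := fun x => (φ x : Matrix ι ι F) *ᵥ v
      map_add' := fun x y => by rw [map_add, Subalgebra.coe_add, Matrix.add_mulVec]
      map_smul' := fun c x => by
        have e : ∀ y : ι → F, c • y = (algebraMap F K c : Matrix ι ι F) *ᵥ y := fun y => by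
          simp [Algebra.algebraMap_eq_smul_one, Matrix.smul_mulVec]
        rw [RingHom.id_apply, e, e, hφs, Matrix.mulVec_mulVec]; rfl }
  have hT : ∀ x, LinearMap.toMatrix' T *ᵥ x = (φ x : Matrix ι ι F) *ᵥ v := fun x => by
    rw [← Matrix.toLin'_apply, Matrix.toLin'_toMatrix']; rfl
  refine ⟨LinearMap.toMatrix' T, fun h => hv ?_, ?_, fun k hk => ?_, ?_⟩
  · have := hT w
    rwa [h, Matrix.zero_mulVec, hφ, Subalgebra.coe_one, Matrix.one_mulVec, eq_comm] at this
  · apply Matrix.toLin'.injective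
    refine LinearMap.ext fun x => ?_
    rw [Matrix.toLin'_apply, ← Matrix.mulVec_mulVec, hT, hT, hφs,
      hφ' v (Submodule.mem_span_singleton_self v)]
    simp
  · apply Matrix.toLin'.injective
    refine LinearMap.ext fun x => ?_
    rw [Matrix.toLin'_apply, Matrix.toLin'_apply, ← Matrix.mulVec_mulVec, ← Matrix.mulVec_mulVec,
      hT, hT, hφs ⟨k, hk⟩, Matrix.mulVec_mulVec]
    rfl
  · rw [← hK.finrank_eq]
    refine le_trans (Submodule.finrank_mono ?_) (LinearMap.finrank_range_le (evalAt K v))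
    rintro _ ⟨x, rfl⟩
    exact ⟨φ x, by rw [Matrix.toLin'_apply, hT]; rfl⟩

theorem oneAdd_mem_normalizer {K : Subalgebra F (Matrix ι ι F)} {T : Matrix ι ι F}
    (hT : T * T = 0) (h : ∀ k ∈ K, T * k = k * T) : oneAdd hT ∈ Geo.subalgebraNormalizer K := by
  have key : ∀ (g : GL ι F), (∀ k ∈ K, (g : Matrix ι ι F) * k = k * g) → ∀ k ∈ K,
      (g : Matrix ι ι F) * k * ((g⁻¹ : GL ι F) : Matrix ι ι F) ∈ K := fun g hg k hk => by
    rwa [hg k hk, Units.mul_inv_cancel_right]
  intro k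
  refine ⟨key _ (fun k hk => ?_) k, fun hk => ?_⟩
  · simp [oneAdd, add_mul, mul_add, h k hk]
  · have := key (oneAdd hT)⁻¹ (fun k hk => by simp [oneAdd, sub_mul, mul_sub, h k hk]) _ hk
    simpa [mul_assoc] using this

theorem oneAdd_notMem_normalizer {r : ℕ} {K : Subalgebra F (Matrix ι ι F)}
    (hK : Geo.IsFieldSubalgebra r K) {T : Matrix ι ι F} (hT : T * T = 0) (h0 : T ≠ 0) {s : ℕ}
    (hs : finrank F (LinearMap.range (Matrix.toLin' T)) ≤ s) (hn : 2 * s < Fintype.card ι)
    (hr : s < r) : oneAdd hT ∉ Geo.subalgebraNormalizer K := by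
  intro hg
  have hc : ∀ k ∈ K, T * k = k * T := by
    intro k hk
    have h1 := (hg k).1 hk
    obtain ⟨x, hx, hx0⟩ := exists_notMem_of_finrank_lt (U := ⊥)
      (W := LinearMap.ker (Matrix.toLin' T) ⊓ LinearMap.ker (Matrix.toLin' T ∘ₗ Matrix.toLin' k))
      (by
        have h2 := LinearMap.finrank_range_add_finrank_ker (Matrix.toLin' T)
        have h3 := LinearMap.finrank_range_add_finrank_ker (Matrix.toLin' T ∘ₗ Matrix.toLin' k)
        have h4 := Submodule.finrank_mono (LinearMap.range_comp_le_range (Matrix.toLin' k)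
          (Matrix.toLin' T))
        have h5 := Submodule.finrank_sup_add_finrank_inf_eq (LinearMap.ker (Matrix.toLin' T))
          (LinearMap.ker (Matrix.toLin' T ∘ₗ Matrix.toLin' k))
        have h6 := Submodule.finrank_le (LinearMap.ker (Matrix.toLin' T) ⊔
          LinearMap.ker (Matrix.toLin' T ∘ₗ Matrix.toLin' k))
        rw [Module.finrank_fintype_fun_eq_card] at h2 h3 h6
        rw [finrank_bot]; omega)
    have e1 : T *ᵥ x = 0 := hx.1
    have e2 : T *ᵥ (k *ᵥ x) = 0 := hx.2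
    have h2 := eq_zero_of_mulVec_field hK (K.sub_mem h1 hk) (by simpa using hx0) (by
      show ((1 + T) * k * (1 - T) - k) *ᵥ x = 0
      simp only [Matrix.sub_mulVec, ← Matrix.mulVec_mulVec, Matrix.add_mulVec, Matrix.one_mulVec,
        e1, e2, sub_zero, add_zero, sub_self])
    have h3 := congrArg (· * (oneAdd hT : Matrix ι ι F)) (sub_eq_zero.1 h2)
    simp only [Units.inv_mul_cancel_right] at h3
    simpa [oneAdd, add_mul, mul_add] using h3
  obtain ⟨x, hx⟩ : ∃ x, T *ᵥ x ≠ 0 := by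
    by_contra! h
    exact h0 (Matrix.toLin'.injective (LinearMap.ext fun x => by simpa using h x))
  have hinj : Function.Injective (evalAt K (T *ᵥ x)) :=
    (injective_iff_map_eq_zero _).2 fun k hk =>
      Subtype.ext (eq_zero_of_mulVec_field hK k.2 hx hk)
  have h1 : LinearMap.range (evalAt K (T *ᵥ x)) ≤ LinearMap.range (Matrix.toLin' T) := by
    rintro _ ⟨k, rfl⟩
    refine ⟨(k : Matrix ι ι F) *ᵥ x, ?_⟩
    rw [Matrix.toLin'_apply, Matrix.mulVec_mulVec, hc _ k.2, ← Matrix.mulVec_mulVec]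
    rfl
  have := Submodule.finrank_mono h1
  rw [LinearMap.finrank_range_of_inj hinj, hK.finrank_eq] at this
  omega

theorem isFieldSubalgebra_bot [Nonempty ι] :
    Geo.IsFieldSubalgebra 1 (⊥ : Subalgebra F (Matrix ι ι F)) := by
  refine ⟨fun x hx y _ => ?_, fun x hx h0 => ?_, Subalgebra.finrank_bot⟩
  · obtain ⟨c, rfl⟩ := Algebra.mem_bot.1 hx
    exact Algebra.commutes c y
  · obtain ⟨c, rfl⟩ := Algebra.mem_bot.1 hx
    refine ⟨_, Subalgebra.algebraMap_mem _ c⁻¹, ?_⟩
    rw [← map_mul, mul_inv_cancel₀ (fun h => h0 (by simp [h])), map_one]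

theorem exists_between_field [Fintype F] {r : ℕ} (hr1 : 1 < r) (hrp : ¬ r.Prime)
    (hlt : r < Fintype.card ι) {K : Subalgebra F (Matrix ι ι F)}
    (hK : Geo.IsFieldSubalgebra r K) :
    ∃ M : Subgroup (GL ι F), Geo.subalgebraNormalizer K ≤ M ∧
      (∃ g ∈ M, g ∈ Geo.specialLinear ι F ∧ g ∉ Geo.subalgebraNormalizer K) ∧
      ∃ g ∈ Geo.specialLinear ι F, g ∉ M := by
  haveI : Nonempty ι := Fintype.card_pos_iff.1 (by omega)
  have hs := Nat.minFac_prime hr1.ne'
  have hs2 : 2 * r.minFac ≤ r := by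
    obtain ⟨c, hc⟩ := Nat.minFac_dvd r
    have h1 : c ≠ 1 := fun h => hrp (by rw [hc, h, mul_one]; exact hs)
    have h0 : c ≠ 0 := fun h => by rw [h] at hc; omega
    nlinarith [Nat.two_le_iff c |>.2 ⟨h0, h1⟩]
  have h2 := hs.two_le
  obtain ⟨K', hK', hle, hmem⟩ := Asch.exists_prime_field_of_norms
    (Asch.norms_of_le_subalgebraNormalizer (le_refl (Geo.subalgebraNormalizer K))) hK.comm hK.inv
    r.minFac hs.pos (hK.finrank_eq ▸ Nat.minFac_dvd r)
  refine ⟨_, hle, ?_, ?_⟩
  · obtain ⟨T, h0, hT, hc, hr⟩ := exists_field_transvection hK' (by omega)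
    exact ⟨oneAdd hT, oneAdd_mem_normalizer hT hc, (mem_specialLinear_iff _).2
      (mem_SLV.2 (by rw [det_toLE]; exact det_one_add_of_sq_zero hT)),
      oneAdd_notMem_normalizer hK hT h0 hr (by omega) (by omega)⟩
  · obtain ⟨T, h0, hT, -, hr⟩ := exists_field_transvection (isFieldSubalgebra_bot (ι := ι) (F := F))
      (by omega)
    exact ⟨oneAdd hT, (mem_specialLinear_iff _).2
      (mem_SLV.2 (by rw [det_toLE]; exact det_one_add_of_sq_zero hT)),
      oneAdd_notMem_normalizer hK' hT h0 hr (by omega) (by omega)⟩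

end Cfsg.Agent.H7
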