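import Mathlib

/-!
Singer groups.
-/

set_option autoImplicit false
set_option linter.unusedSectionVars false

namespace Cfsg.Agent.H7

open Module

variable (F K : Type*) [Field F] [Field K] [Algebra F K]

/-- the multiplication homomorphism -/
abbrev singHom : Kˣ →* (Module.End F K)ˣ :=
  Units.map ((Algebra.lmul F K : K →ₐ[F] Module.End F K) : K →* Module.End F K)

variable {F K}

theorem singHom_apply (c : Kˣ) (x : K) : (singHom F K c : Module.End F K) x = c * x := rfl

theorem mem_singer {g : (Module.End F K)ˣ} :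
    g ∈ (singHom F K).range ↔ ∃ c : K, ∀ x, (g : Module.End F K) x = c * x := by
  constructor
  · rintro ⟨c, rfl⟩; exact ⟨c, fun _ => rfl⟩
  · rintro ⟨c, hc⟩
    have h0 : c ≠ 0 := by
      rintro rfl
      have := congrArg (fun f : Module.End F K => f 1) g.mul_inv
      simp only [Module.End.mul_apply, hc, zero_mul, Module.End.one_apply] at this
      exact zero_ne_one this
    exact ⟨Units.mk0 c h0, Units.ext (LinearMap.ext fun x => (hc x).symm)⟩

theorem singHom_injective : Function.Injective (singHom F K) := fun a b h =>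
  Units.ext (by simpa [singHom_apply] using congrArg (fun f : (Module.End F K)ˣ => f.1 1) h)

theorem unit_apply_inv (g : (Module.End F K)ˣ) (x : K) :
    (g : Module.End F K) ((g⁻¹ : (Module.End F K)ˣ).1 x) = x :=
  congrArg (fun f : Module.End F K => f x) g.mul_inv

theorem unit_inv_apply (g : (Module.End F K)ˣ) (x : K) :
    (g⁻¹ : (Module.End F K)ˣ).1 ((g : Module.End F K) x) = x :=
  congrArg (fun f : Module.End F K => f x) g.inv_mul

theorem centralizer_singer :
    Subgroup.centralizer ((singHom F K).range : Set (Module.End F K)ˣ) = (singHom F K).range := by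
  ext g
  rw [Subgroup.mem_centralizer_iff]
  constructor
  · intro h
    refine mem_singer.2 ⟨g.1 1, fun x => ?_⟩
    by_cases hx : x = 0
    · simp [hx]
    have := congrArg (fun f : (Module.End F K)ˣ => f.1 1) (h _ ⟨Units.mk0 x hx, rfl⟩)
    simp only [Units.val_mul, Module.End.mul_apply, singHom_apply, Units.val_mk0, mul_one] at this
    rw [← this, mul_comm]
  · rintro ⟨c, rfl⟩ _ ⟨d, rfl⟩
    rw [← map_mul, ← map_mul, mul_comm]

theorem mem_map_conj_singer {g h : (Module.End F K)ˣ} :
    h ∈ (singHom F K).range.map (MulAut.conj g).toMonoidHom ↔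
      ∃ d : K, ∀ x, (h : Module.End F K) (g.1 x) = g.1 (d * x) := by
  constructor
  · rintro ⟨_, ⟨d, rfl⟩, rfl⟩
    exact ⟨d, fun x => by simp [unit_inv_apply, singHom_apply]⟩
  · rintro ⟨d, hd⟩
    refine ⟨g⁻¹ * h * g, mem_singer.2 ⟨d, fun x => ?_⟩, by simp [mul_assoc]⟩
    simp only [Units.val_mul, Module.End.mul_apply, hd, unit_inv_apply]

theorem card_normalizer_singer [Fintype F] [Fintype K] :
    Nat.card (Subgroup.normalizer ((singHom F K).range : Set (Module.End F K)ˣ)) =
      finrank F K * (Fintype.card K - 1) := by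
  let f : (K ≃ₐ[F] K) × Kˣ → (Module.End F K)ˣ := fun p =>
    singHom F K p.2 * (LinearMap.GeneralLinearGroup.ofLinearEquiv p.1.toLinearEquiv)
  have hf : ∀ p x, (f p).1 x = p.2 * p.1 x := fun _ _ => rfl
  have hinj : Function.Injective f := by
    rintro ⟨σ, c⟩ ⟨τ, d⟩ h
    have h1 : ∀ x, (c : K) * σ x = d * τ x := fun x => by rw [← hf (σ, c), h, hf]
    have h2 : c = d := Units.ext (by simpa using h1 1)
    subst h2
    exact Prod.ext (AlgEquiv.ext fun x => mul_left_cancel₀ c.ne_zero (h1 x)) rfl
  have hr : Set.range f = Subgroup.normalizer ((singHom F K).range : Set (Module.End F K)ˣ) := by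
    ext g
    constructor
    · rintro ⟨⟨σ, c⟩, rfl⟩
      intro h
      simp only [SetLike.mem_coe, mem_singer]
      have e : ∀ x, (f (σ, c))⁻¹.1 x = σ.symm (c⁻¹ * x) := fun x => by
        conv_lhs => rw [show x = (f (σ, c)).1 (σ.symm (c⁻¹ * x)) by simp [hf]]
        rw [unit_inv_apply]
      constructor
      · rintro ⟨d, hd⟩
        refine ⟨σ d, fun x => ?_⟩
        simp only [Units.val_mul, Module.End.mul_apply, hf, e, hd, map_mul,
          AlgEquiv.apply_symm_apply, Units.val_inv_eq_inv_val]
        field_simp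
      · rintro ⟨d, hd⟩
        refine ⟨σ.symm d, fun x => ?_⟩
        have := hd (c * σ x)
        simp only [Units.val_mul, Module.End.mul_apply, hf, e] at this
        apply σ.injective
        apply mul_left_cancel₀ c.ne_zero
        rw [Units.inv_mul_cancel_left, AlgEquiv.symm_apply_apply] at this
        rw [this]; simp; ring
    · intro hg
      have h0 : g.1 1 ≠ 0 := fun h => by simpa [h] using unit_inv_apply g 1
      have h1 : ∀ c x, g.1 (c * x) * g.1 1 = g.1 c * g.1 x := by
        intro c x
        by_cases hc : c = 0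
        · simp [hc]
        obtain ⟨d, hd⟩ := mem_singer.1 ((hg _).1 ⟨Units.mk0 c hc, rfl⟩)
        have e : ∀ y, g.1 (c * y) = d * g.1 y := fun y => by
          simpa [unit_inv_apply, singHom_apply] using hd (g.1 y)
        have := e 1
        rw [mul_one] at this
        rw [e, this]; ring
      let σ : K →ₐ[F] K := AlgHom.ofLinearMap ((g.1 1)⁻¹ • g.1) (by simp [h0]) fun x y => by
        simp only [LinearMap.smul_apply, smul_eq_mul]
        field_simp
        rw [← h1 x y, mul_comm]
      refine ⟨(AlgEquiv.ofBijective σ (Algebra.IsAlgebraic.algHom_bijective σ),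
        Units.mk0 _ h0), Units.ext (LinearMap.ext fun x => ?_)⟩
      simp [hf, σ, h0]
  have := Nat.card_congr (Equiv.ofInjective f hinj)
  rw [hr] at this
  rw [← SetLike.coe_sort_coe, ← this, Nat.card_prod, IsGalois.card_aut_eq_finrank,
    Nat.card_units, Nat.card_eq_fintype_card]

theorem card_inf_singer_dvd [Fintype F] [Fintype K] (g : (Module.End F K)ˣ)
    (hg : (singHom F K).range.map (MulAut.conj g).toMonoidHom ≠ (singHom F K).range) :
    ∃ r : ℕ, 1 ≤ r ∧ r ∣ finrank F K ∧ r < finrank F K ∧
      Nat.card ↥((singHom F K).range.map (MulAut.conj g).toMonoidHom ⊓ (singHom F K).range) ∣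
        Fintype.card F ^ r - 1 := by
  let L : Subalgebra F K :=
    { carrier := {c | ∃ d : K, ∀ x, c * g.1 x = g.1 (d * x)}
      mul_mem' := by
        rintro a b ⟨c, hc⟩ ⟨d, hd⟩
        exact ⟨c * d, fun x => by rw [mul_assoc, hd, hc, mul_assoc]⟩
      add_mem' := by
        rintro a b ⟨c, hc⟩ ⟨d, hd⟩
        exact ⟨c + d, fun x => by rw [add_mul, add_mul, map_add, hc, hd]⟩
      algebraMap_mem' := fun a => ⟨algebraMap F K a, fun x => by
        rw [← Algebra.smul_def, ← Algebra.smul_def, map_smul]⟩ }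
  let L' : IntermediateField F K := L.toIntermediateField' (Subalgebra.isField_of_algebraic L)
  have hdvd : finrank F L' ∣ finrank F K := ⟨_, (Module.finrank_mul_finrank F L' K).symm⟩
  refine ⟨finrank F L', Module.finrank_pos, hdvd, ?_, ?_⟩
  · refine lt_of_le_of_ne (Nat.le_of_dvd Module.finrank_pos hdvd) fun h => hg ?_
    have h1 : L' = ⊤ := IntermediateField.eq_of_le_of_finrank_eq le_top (by simpa using h)
    symm
    haveI : Finite (Module.End F K) := Finite.of_injective _ DFunLike.coe_injective
    refine Subgroup.eq_of_le_of_card_ge ?_ ?_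
    · rintro _ ⟨c, rfl⟩
      obtain ⟨d, hd⟩ : (c : K) ∈ L' := h1 ▸ IntermediateField.mem_top
      exact mem_map_conj_singer.2 ⟨d, hd⟩
    · exact (Subgroup.card_map_of_injective (MulAut.conj g).injective).le
  · have : (singHom F K).range.map (MulAut.conj g).toMonoidHom ⊓ (singHom F K).range =
        ((singHom F K).comp (Units.map (algebraMap L' K).toMonoidHom)).range := by
      ext h
      constructor
      · rintro ⟨h1, c, rfl⟩
        obtain ⟨d, hd⟩ := mem_map_conj_singer.1 h1
        refine ⟨Units.mk0 (⟨c, d, hd⟩ : L') (fun h => c.ne_zero (congrArg Subtype.val h)), ?_⟩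
        exact congrArg (singHom F K) (Units.ext rfl)
      · rintro ⟨c, rfl⟩
        obtain ⟨d, hd⟩ := c.1.2
        exact ⟨mem_map_conj_singer.2 ⟨d, hd⟩, _, rfl⟩
    rw [this]
    refine (Subgroup.card_dvd_of_surjective _ (MonoidHom.rangeRestrict_surjective _)).trans ?_
    rw [Nat.card_units, ← Nat.card_eq_fintype_card, Module.natCard_eq_pow_finrank (K := F)]

theorem exists_conj_singer [Fintype F] [Fintype K] (U : Subgroup (Module.End F K)ˣ)
    (hU : IsMulCommutative U) (hcard : Nat.card U = Fintype.card K - 1) :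
    ∃ g : (Module.End F K)ˣ, U.map (MulAut.conj g).toMonoidHom = (singHom F K).range := by
  classical
  haveI : Finite (Module.End F K) := Finite.of_injective _ DFunLike.coe_injective
  set s : Set (Module.End F K) := Units.val '' (U : Set (Module.End F K)ˣ) with hs
  have hcomm : ∀ a ∈ s, ∀ b ∈ s, a * b = b * a := by
    rintro _ ⟨a, ha, rfl⟩ _ ⟨b, hb, rfl⟩
    have := congrArg (fun x : U => (x.1 : Module.End F K)) (hU.is_comm.comm ⟨a, ha⟩ ⟨b, hb⟩)
    simpa using this
  set A := Algebra.adjoin F s with hA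
  letI : CommRing A := Algebra.adjoinCommRingOfComm F hcomm
  obtain ⟨p, hp⟩ := CharP.exists F
  haveI : Fact p.Prime := ⟨CharP.char_is_prime F p⟩
  haveI : CharP A p := charP_of_injective_algebraMap (algebraMap F A).injective p
  obtain ⟨k, -, hk⟩ := FiniteField.card F p
  have hK : Fintype.card K = p ^ (k * finrank F K : ℕ) := by
    rw [Module.card_eq_pow_finrank (K := F), hk, pow_mul]
  have h1 : 1 < Fintype.card K := Fintype.one_lt_card
  have hpow : ∀ x : A, x ^ Fintype.card K = x := by
    rintro ⟨x, hx⟩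
    induction hx using Algebra.adjoin_induction with
    | mem x hx =>
      obtain ⟨u, hu, rfl⟩ := hx
      have : (⟨u, hu⟩ : U) ^ Nat.card U = 1 := pow_card_eq_one'
      have h2 : u ^ (Fintype.card K - 1) = 1 := by
        rw [← hcard]; exact congrArg Subtype.val this
      apply Subtype.ext
      show (u : Module.End F K) ^ _ = u
      rw [← Nat.sub_add_cancel h1.le, pow_succ, ← Units.val_pow_eq_pow_val, h2]; simp
    | algebraMap r =>
      show (algebraMap F A r) ^ _ = algebraMap F A r
      rw [← map_pow, Module.card_eq_pow_finrank (K := F), FiniteField.pow_card_pow]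
    | add x y hx hy ihx ihy =>
      show ((⟨x, hx⟩ : A) + ⟨y, hy⟩) ^ _ = (⟨x, hx⟩ : A) + ⟨y, hy⟩
      rw [hK, add_pow_char_pow, ← hK, ihx, ihy]
    | mul x y hx hy ihx ihy =>
      show ((⟨x, hx⟩ : A) * ⟨y, hy⟩) ^ _ = (⟨x, hx⟩ : A) * ⟨y, hy⟩
      rw [mul_pow, ihx, ihy]
  let ev : K → (A →ₗ[F] K) := fun v => (LinearMap.applyₗ v) ∘ₗ A.val.toLinearMap
  have hev : ∀ v (a : A), ev v a = a.1 v := fun _ _ => rfl
  obtain ⟨v, hv⟩ : ∃ v, LinearMap.ker (ev v) = ⊥ := by
    set v := Function.argmin (fun v => finrank F (LinearMap.ker (ev v))) with hv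
    refine ⟨v, eq_bot_iff.2 fun a ha => ?_⟩
    by_contra h0
    set e := a ^ (Fintype.card K - 1) with he
    have hea : e * a = a := by rw [he, ← pow_succ, Nat.sub_add_cancel h1.le, hpow]
    have hee : e * e = e := by
      obtain ⟨m, hm⟩ : ∃ m, Fintype.card K - 1 = m + 1 := ⟨Fintype.card K - 2, by omega⟩
      calc e * e = e * a * a ^ m := by rw [mul_assoc, ← pow_succ', ← hm]
        _ = e := by rw [hea, ← pow_succ', ← hm]
    have hev0 : e.1 v = 0 := by
      obtain ⟨m, hm⟩ : ∃ m, Fintype.card K - 1 = m + 1 := ⟨Fintype.card K - 2, by omega⟩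
      rw [he, hm, pow_succ]
      show (a ^ m).1 (a.1 v) = 0
      rw [show a.1 v = 0 from ha, map_zero]
    obtain ⟨w, hw⟩ : ∃ w, e.1 w ≠ 0 := by
      by_contra! h
      have : e = 0 := Subtype.ext (LinearMap.ext h)
      rw [this, zero_mul] at hea
      exact h0 (by simp [← hea])
    refine Function.not_lt_argmin (fun v => finrank F (LinearMap.ker (ev v))) (v + e.1 w) ?_
    rw [← hv]
    refine Submodule.finrank_lt_finrank_of_lt (lt_of_le_of_ne (fun b hb => ?_) fun h => hw ?_)
    · have h2 : b.1 (v + e.1 w) = 0 := hb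
      have h3 : (b * e).1 (v + e.1 w) = 0 := by
        rw [mul_comm]
        show e.1 (b.1 _) = 0
        rw [h2, map_zero]
      have h4 : (b * e).1 (v + e.1 w) = b.1 (e.1 w) := by
        show b.1 (e.1 (v + e.1 w)) = _
        rw [map_add, hev0, zero_add]
        exact congrArg (fun x : A => b.1 (x.1 w)) hee
      rw [map_add, ← h4, h3, add_zero] at h2
      exact h2
    · have h2 : e ∈ LinearMap.ker (ev (v + e.1 w)) := h ▸ hev0
      have h3 : e.1 (v + e.1 w) = 0 := h2
      rw [map_add, hev0, zero_add] at h3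
      rw [← h3]
      exact (congrArg (fun x : A => x.1 w) hee).symm
  have hinj := LinearMap.ker_eq_bot.1 hv
  let j : Option U → A := fun o => o.elim 0 fun u => ⟨u.1, Algebra.subset_adjoin ⟨u, u.2, rfl⟩⟩
  have hj : Function.Injective j := by
    rintro (_ | a) (_ | b) h
    · rfl
    · exact absurd (congrArg Subtype.val h).symm b.1.ne_zero
    · exact absurd (congrArg Subtype.val h) a.1.ne_zero
    · exact congrArg some (Subtype.ext (Units.ext (congrArg Subtype.val h)))
  have hcO : Nat.card (Option U) = Nat.card K := by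
    rw [Finite.card_option, hcard, Nat.card_eq_fintype_card]; omega
  have hbij : Function.Bijective (ev v ∘ j) := (hinj.comp hj).bijective_of_nat_card_le hcO.ge
  have hsurj : Function.Surjective (ev v) := hbij.2.of_comp
  have hjs : Function.Surjective j := fun a => by
    obtain ⟨o, ho⟩ := hbij.2 (ev v a)
    exact ⟨o, hinj ho⟩
  have hfield : IsField A := by
    refine ⟨⟨0, 1, zero_ne_one⟩, mul_comm, fun {a} ha => ?_⟩
    obtain ⟨_ | u, rfl⟩ := hjs a
    · exact absurd rfl ha
    · exact ⟨j (some u⁻¹), Subtype.ext u.1.mul_inv⟩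
  letI := hfield.toField
  let φ := LinearEquiv.ofBijective (ev v) ⟨hinj, hsurj⟩
  obtain ⟨ψ⟩ := FiniteField.nonempty_algHom_of_finrank_dvd (F := F) (K := A) (L := K)
    φ.finrank_eq.dvd
  have hψ : Function.Bijective ψ :=
    ψ.injective.bijective_of_nat_card_le (Nat.card_congr φ.toEquiv).ge
  let g := φ.symm.trans (LinearEquiv.ofBijective ψ.toLinearMap hψ)
  have hg : ∀ a : A, g (a.1 v) = ψ a := fun a => congrArg ψ (φ.symm_apply_apply a)
  refine ⟨LinearMap.GeneralLinearGroup.ofLinearEquiv g, Subgroup.eq_of_le_of_card_ge ?_ ?_⟩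
  · rintro _ ⟨u, hu, rfl⟩
    refine mem_singer.2 ⟨ψ (j (some ⟨u, hu⟩)), fun x => ?_⟩
    obtain ⟨x, rfl⟩ := g.surjective x
    obtain ⟨a, rfl⟩ := hsurj x
    show g (u.1 (g.symm (g (a.1 v)))) = _
    rw [g.symm_apply_apply, hev, hg, ← map_mul, ← hg]
    rfl
  · rw [Subgroup.card_map_of_injective (MulAut.conj _).injective, hcard,
      ← Nat.card_congr (MonoidHom.ofInjective singHom_injective).toEquiv, Nat.card_units,
      Nat.card_eq_fintype_card]

end Cfsg.Agent.H7
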